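import Mathlib
import Cfsg.Agent.H524.CCSub

/-!
# Class sizes in the alternating groups

`primB_alt`, `regB_alt`: the properties `PrimB`, `RegB` for the alternating groups of degree at least 5.
-/

set_option autoImplicit false
set_option linter.unusedSectionVars false

namespace Cfsg.Agent.H524.AltCls

open Subgroup Equiv Cfsg.Agent.H524.DirRed
open scoped Nat

variable {α : Type*} [Fintype α] [DecidableEq α]

/-- Products of `m` disjoint cycles of length `s`. -/
theorem exists_type {m s : ℕ} (hm : m ≠ 0) (hs : 2 ≤ s) (h : m * s ≤ Fintype.card α) (he : Even (m * s + m)) :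
    ∃ x : alternatingGroup α, orderOf x = s ∧
      Nat.card (centralizer ({(x : Perm α)} : Set (Perm α))) = (Fintype.card α - m * s)! * s ^ m * m ! := by
  obtain ⟨g, hg⟩ := (Equiv.Perm.exists_with_cycleType_iff α (m := Multiset.replicate m s)).2
    ⟨by simpa using h, fun a ha => by rw [Multiset.eq_of_mem_replicate ha]; exact hs⟩
  have hg1 : g ∈ alternatingGroup α := by
    rw [Equiv.Perm.mem_alternatingGroup, Equiv.Perm.sign_of_cycleType, hg]
    simp only [Multiset.sum_replicate, smul_eq_mul, Multiset.card_replicate]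
    exact Even.neg_one_pow he
  refine ⟨⟨g, hg1⟩, ?_, ?_⟩
  · rw [Subgroup.orderOf_mk, ← Equiv.Perm.lcm_cycleType, hg]
    apply Nat.dvd_antisymm
    · rw [Multiset.lcm_dvd]
      intro b hb
      rw [Multiset.eq_of_mem_replicate hb]
    · exact Multiset.dvd_lcm (Multiset.mem_replicate.2 ⟨hm, rfl⟩)
  · show Nat.card (centralizer ({g} : Set (Perm α))) = _
    rw [Equiv.Perm.nat_card_centralizer, hg]
    simp only [Multiset.sum_replicate, smul_eq_mul, Multiset.prod_replicate, Multiset.toFinset_replicate]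
    rw [if_neg hm, Finset.prod_singleton, Multiset.count_replicate_self]

/-- The class sizes in the alternating group. -/
theorem index_alt (h2 : 2 ≤ Fintype.card α) (x : alternatingGroup α) {c : ℕ}
    (hc : Nat.card (centralizer ({(x : Perm α)} : Set (Perm α))) = c) :
    ∃ d, d ≠ 0 ∧ (centralizer ({x} : Set (alternatingGroup α))).index * c * 2 = (Fintype.card α)! * d ∧ d ∣ 2 := by
  have : Nontrivial α := Fintype.one_lt_card_iff_nontrivial.1 (by omega)
  set C := centralizer ({(x : Perm α)} : Set (Perm α)) with hC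
  have h1 : (C.subgroupOf (alternatingGroup α)) = centralizer ({x} : Set (alternatingGroup α)) := by
    ext y
    rw [mem_subgroupOf, hC, mem_centralizer_singleton_iff, mem_centralizer_singleton_iff]
    constructor
    · intro h; exact Subtype.ext h
    · intro h; exact congrArg Subtype.val h
  have h3 : Nat.card ↥(centralizer ({x} : Set (alternatingGroup α))) *
      (centralizer ({x} : Set (alternatingGroup α))).index * 2 = (Fintype.card α)! := by
    rw [Subgroup.card_mul_index, ← alternatingGroup.index_eq_two (α := α), Subgroup.card_mul_index, Nat.card_perm,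
      Nat.card_eq_fintype_card]
  have h4 : Nat.card ↥(centralizer ({x} : Set (alternatingGroup α))) * (alternatingGroup α).relIndex C = c := by
    rw [← h1, ← hc]
    have h5 := Subgroup.card_mul_index ((alternatingGroup α).subgroupOf C)
    have h6 : Nat.card ↥((alternatingGroup α).subgroupOf C) = Nat.card ↥(C.subgroupOf (alternatingGroup α)) := by
      have e1 := Nat.card_congr (Subgroup.subgroupOfEquivOfLe (inf_le_left : C ⊓ alternatingGroup α ≤ C)).toEquiv
      have e2 := Nat.card_congr
        (Subgroup.subgroupOfEquivOfLe (inf_le_right : C ⊓ alternatingGroup α ≤ alternatingGroup α)).toEquiv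
      rw [Subgroup.inf_subgroupOf_left] at e1
      rw [Subgroup.inf_subgroupOf_right] at e2
      rw [e1, e2]
    rw [← h6]
    exact h5
  have h7 : (alternatingGroup α).relIndex C ∣ 2 := by
    rw [← alternatingGroup.index_eq_two (α := α)]
    exact Subgroup.relIndex_dvd_index_of_normal _ _
  refine ⟨(alternatingGroup α).relIndex C, ?_, ?_, h7⟩
  · intro h0
    rw [h0] at h7
    omega
  · rw [← h3, ← h4]
    ring

theorem dvd_index_odd (h2 : 2 ≤ Fintype.card α) {x : alternatingGroup α} {c q : ℕ} (hq : q.Prime) (hq2 : q ≠ 2)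
    (hc : Nat.card (centralizer ({(x : Perm α)} : Set (Perm α))) = c) (hc0 : c ≠ 0)
    (h : q * c ∣ (Fintype.card α)!) :
    q ∣ (centralizer ({x} : Set (alternatingGroup α))).index := by
  obtain ⟨d, -, hd, -⟩ := index_alt h2 x hc
  obtain ⟨k, hk⟩ := h
  rw [hk] at hd
  have h1 : (centralizer ({x} : Set (alternatingGroup α))).index * 2 = q * (k * d) := by
    apply Nat.eq_of_mul_eq_mul_right (Nat.pos_of_ne_zero hc0)
    rw [mul_right_comm, hd]
    ring
  have h3 : q ∣ (centralizer ({x} : Set (alternatingGroup α))).index * 2 := ⟨_, h1⟩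
  rcases hq.dvd_mul.1 h3 with h4 | h4
  · exact h4
  · exact absurd ((Nat.prime_dvd_prime_iff_eq hq Nat.prime_two).1 h4) hq2

theorem dvd_index_two (h2 : 2 ≤ Fintype.card α) {x : alternatingGroup α} {c : ℕ}
    (hc : Nat.card (centralizer ({(x : Perm α)} : Set (Perm α))) = c) (hc0 : c ≠ 0)
    (h : 4 * c ∣ (Fintype.card α)!) :
    2 ∣ (centralizer ({x} : Set (alternatingGroup α))).index := by
  obtain ⟨d, -, hd, -⟩ := index_alt h2 x hc
  obtain ⟨k, hk⟩ := h
  rw [hk] at hd
  have h1 : (centralizer ({x} : Set (alternatingGroup α))).index = 2 * (k * d) := by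
    apply Nat.eq_of_mul_eq_mul_right (Nat.pos_of_ne_zero hc0)
    apply Nat.eq_of_mul_eq_mul_right (show 0 < 2 by norm_num)
    rw [hd]
    ring
  exact ⟨_, h1⟩

/-- Cycles. -/
theorem exists_cycle {s : ℕ} (hs : 2 ≤ s) (h : s ≤ Fintype.card α) (he : Odd s) :
    ∃ x : alternatingGroup α, orderOf x = s ∧
      Nat.card (centralizer ({(x : Perm α)} : Set (Perm α))) = (Fintype.card α - s)! * s := by
  obtain ⟨x, h1, h2⟩ := exists_type (α := α) (m := 1) (s := s) one_ne_zero hs (by rwa [one_mul]) (by
    rw [one_mul]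
    exact he.add_one)
  refine ⟨x, h1, ?_⟩
  rw [h2]
  simp

theorem factorial_cycle {n s : ℕ} (hs : 1 ≤ s) (h : s ≤ n) : n ! = ((n - s)! * s) * (n.choose s * (s - 1)!) := by
  have h1 := Nat.choose_mul_factorial_mul_factorial h
  rw [← h1, ← Nat.mul_factorial_pred (by omega : s ≠ 0)]
  ring

/-- Long cycles: even index. -/
theorem two_dvd_index_cycle {s : ℕ} (hs : 5 ≤ s) (h : s ≤ Fintype.card α) (he : Odd s) :
    ∃ x : alternatingGroup α, orderOf x = s ∧ 2 ∣ (centralizer ({x} : Set (alternatingGroup α))).index := by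
  obtain ⟨x, h1, h2⟩ := exists_cycle (by omega) h he
  refine ⟨x, h1, dvd_index_two (by omega) h2 ?_ ?_⟩
  · exact Nat.mul_ne_zero (Nat.factorial_ne_zero _) (by omega)
  · rw [factorial_cycle (by omega) h, mul_comm]
    exact Nat.mul_dvd_mul_left _ (Dvd.dvd.mul_left (Nat.dvd_factorial (by norm_num) (by omega)) _)

/-- Cycles longer than `q`. -/
theorem dvd_index_cycle {s q : ℕ} (hq : q.Prime) (hq2 : q ≠ 2) (hs : q < s) (h : s ≤ Fintype.card α) (he : Odd s) :
    ∃ x : alternatingGroup α, orderOf x = s ∧ q ∣ (centralizer ({x} : Set (alternatingGroup α))).index := by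
  have := hq.two_le
  obtain ⟨x, h1, h2⟩ := exists_cycle (by omega) h he
  refine ⟨x, h1, dvd_index_odd (by omega) hq hq2 h2 ?_ ?_⟩
  · exact Nat.mul_ne_zero (Nat.factorial_ne_zero _) (by omega)
  · rw [factorial_cycle (by omega) h, mul_comm]
    exact Nat.mul_dvd_mul_left _ (Dvd.dvd.mul_left (Nat.dvd_factorial hq.pos (by omega)) _)

/-- Shorter cycles. -/
theorem dvd_index_of_not_dvd {c q : ℕ} (hq : q.Prime) (hq2 : q ≠ 2) (h2 : 2 ≤ Fintype.card α)
    (hqn : q ≤ Fintype.card α) {x : alternatingGroup α}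
    (hc : Nat.card (centralizer ({(x : Perm α)} : Set (Perm α))) = c) (h : ¬ q ∣ c) :
    q ∣ (centralizer ({x} : Set (alternatingGroup α))).index := by
  refine dvd_index_odd h2 hq hq2 hc ?_ ?_
  · rintro rfl
    exact h (dvd_zero _)
  · refine Nat.Coprime.mul_dvd_of_dvd_of_dvd ((Nat.Prime.coprime_iff_not_dvd hq).2 h)
      (Nat.dvd_factorial hq.pos hqn) ?_
    rw [← hc, ← Nat.card_eq_fintype_card, ← Nat.card_perm]
    exact Subgroup.card_subgroup_dvd_card _

/-- **Involutions**: for every odd prime `q` dividing the order there is an involution whose class has size divisible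
by `q`. -/
theorem exists_involution (h5 : 5 ≤ Fintype.card α) {q : ℕ} (hq : q.Prime) (hq2 : q ≠ 2) (hqn : q ≤ Fintype.card α) :
    ∃ x : alternatingGroup α, orderOf x = 2 ∧ q ∣ (centralizer ({x} : Set (alternatingGroup α))).index := by
  set n := Fintype.card α with hn
  have hq3 : 3 ≤ q := by
    have := hq.two_le
    omega
  have hqodd : q % 2 = 1 := hq.eq_two_or_odd.resolve_left hq2
  -- the general statement
  have key : ∀ m : ℕ, m ≠ 0 → Even m → m * 2 ≤ n → q * ((n - m * 2)! * 2 ^ m * m !) ∣ n ! →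
      ∃ x : alternatingGroup α, orderOf x = 2 ∧ q ∣ (centralizer ({x} : Set (alternatingGroup α))).index := by
    intro m hm he hmn hd
    obtain ⟨x, h1, h2⟩ := exists_type (α := α) (m := m) (s := 2) hm le_rfl (by rwa [← hn]) (by
      rw [mul_comm, ← Nat.succ_mul]
      exact he.mul_left _)
    refine ⟨x, h1, dvd_index_odd (by omega) hq hq2 h2 ?_ hd⟩
    positivity
  have hmult : ∀ m : ℕ, m * 2 ≤ n → ∃ t u : ℕ, n ! = ((n - m * 2)! * 2 ^ m * m !) * t ∧ n ! = (n - m * 2)! * m ! * m ! * u := by
    intro m hm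
    have h1 := Nat.choose_mul_factorial_mul_factorial hm
    have h3 : m ! * m ! ∣ (m * 2)! := by
      have := Nat.factorial_mul_factorial_dvd_factorial_add m m
      rwa [← mul_two] at this
    obtain ⟨v, hv⟩ := h3
    have h4 : 2 ^ m * m ! ∣ (m * 2)! := by
      obtain ⟨w, hw⟩ : ∃ w, (2 * m)! = 2 ^ m * m ! * w := by
        clear hv v h1 hm
        induction m with
        | zero => exact ⟨1, by simp⟩
        | succ k ih =>
          obtain ⟨w, hw⟩ := ih
          refine ⟨w * (2 * k + 1), ?_⟩
          rw [show 2 * (k + 1) = 2 * k + 1 + 1 from by ring, Nat.factorial_succ, Nat.factorial_succ, hw,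
            Nat.factorial_succ, pow_succ]
          ring
      exact ⟨w, by rw [mul_comm m 2, hw]⟩
    obtain ⟨w, hw⟩ := h4
    refine ⟨n.choose (m * 2) * w, n.choose (m * 2) * v, ?_, ?_⟩
    · rw [← h1, hw]; ring
    · rw [← h1, hv]; ring
  by_cases hbig : 2 * q + 2 ≤ n
  · refine key (q + 1) (by omega) ?_ (by omega) ?_
    · rw [Nat.even_iff]; omega
    · obtain ⟨t, u, h1, h2⟩ := hmult (q + 1) (by omega)
      have h3 : q ∣ t := by
        have hcop : (2 ^ (q + 1)).Coprime q := by
          apply Nat.Coprime.pow_left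
          exact (Nat.coprime_primes Nat.prime_two hq).2 (Ne.symm hq2)
        have h4 : 2 ^ (q + 1) * t = (q + 1)! * u := by
          have hpos : 0 < (n - (q + 1) * 2)! * (q + 1)! := by positivity
          apply Nat.eq_of_mul_eq_mul_left hpos
          calc (n - (q + 1) * 2)! * (q + 1)! * (2 ^ (q + 1) * t)
              = (n - (q + 1) * 2)! * 2 ^ (q + 1) * (q + 1)! * t := by ring
            _ = n ! := h1.symm
            _ = (n - (q + 1) * 2)! * (q + 1)! * ((q + 1)! * u) := by rw [h2]; ring
        have h5 : q ∣ 2 ^ (q + 1) * t := by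
          rw [h4]
          exact Dvd.dvd.mul_right (Nat.dvd_factorial hq.pos (by omega)) _
        exact hcop.symm.dvd_of_dvd_mul_left h5
      rw [h1, mul_comm q]
      exact Nat.mul_dvd_mul_left _ h3
  · -- `n ≤ 2 q + 1`
    by_cases h7 : n = 7 ∧ q = 3
    · obtain ⟨h7, h3⟩ := h7
      refine key 2 (by norm_num) (by norm_num) (by omega) ?_
      rw [h7, h3]
      decide
    · refine key (2 * (n / 4)) (by omega) (by simp) (by omega) ?_
      obtain ⟨t, u, h1, -⟩ := hmult (2 * (n / 4)) (by omega)
      have hcop : q.Coprime ((n - 2 * (n / 4) * 2)! * 2 ^ (2 * (n / 4)) * (2 * (n / 4))!) := by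
        apply Nat.Coprime.mul_right
        · apply Nat.Coprime.mul_right
          · rw [Nat.Prime.coprime_iff_not_dvd hq, hq.dvd_factorial]
            omega
          · apply Nat.Coprime.pow_right
            exact (Nat.coprime_primes hq Nat.prime_two).2 hq2
        · rw [Nat.Prime.coprime_iff_not_dvd hq, hq.dvd_factorial]
          omega
      exact Nat.Coprime.mul_dvd_of_dvd_of_dvd hcop (Nat.dvd_factorial hq.pos hqn) ⟨t, h1⟩

theorem le_card_of_dvd (h2 : 2 ≤ Fintype.card α) {q : ℕ} (hq : q.Prime) (h : q ∣ Nat.card (alternatingGroup α)) :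
    q ≤ Fintype.card α := by
  have : Nontrivial α := Fintype.one_lt_card_iff_nontrivial.1 (by omega)
  rw [← hq.dvd_factorial]
  have h3 : Nat.card (alternatingGroup α) * 2 = (Fintype.card α)! := by
    rw [← alternatingGroup.index_eq_two (α := α), Subgroup.card_mul_index, Nat.card_perm, Nat.card_eq_fintype_card]
  rw [← h3]
  exact Dvd.dvd.mul_right h _

theorem primB_alt (h5 : 5 ≤ Fintype.card α) {p : ℕ} (hp : p.Prime) (h : p ∣ Nat.card (alternatingGroup α)) :
    PrimB (alternatingGroup α) p := by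
  by_cases hp2 : p = 2
  · subst hp2
    obtain ⟨x, h1, h2⟩ := two_dvd_index_cycle (α := α) (s := 5) le_rfl h5 (by decide)
    exact ⟨x, ⟨5, 1, by norm_num, by norm_num, by rw [h1, pow_one]⟩, h2⟩
  · obtain ⟨x, h1, h2⟩ := exists_involution h5 hp hp2 (le_card_of_dvd (by omega) hp h)
    exact ⟨x, ⟨2, 1, by norm_num, Ne.symm hp2, by rw [h1, pow_one]⟩, h2⟩

theorem regB_alt (h5 : 5 ≤ Fintype.card α) {p q : ℕ} (hp : p.Prime) (hq : q.Prime) (hpq : p ≠ q)
    (h : q ∣ Nat.card (alternatingGroup α)) : RegB (alternatingGroup α) p q := by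
  have hqn := le_card_of_dvd (α := α) (by omega) hq h
  by_cases hq2 : q = 2
  · subst hq2
    by_cases hp5 : p = 5
    · subst hp5
      by_cases h7 : 7 ≤ Fintype.card α
      · obtain ⟨x, h1, h2⟩ := two_dvd_index_cycle (α := α) (s := 7) (by norm_num) h7 (by decide)
        exact ⟨x, by rw [h1]; decide, h2⟩
      · obtain ⟨x, h1, h2⟩ := exists_cycle (α := α) (s := 3) (by norm_num) (by omega) (by decide)
        refine ⟨x, by rw [h1]; decide, dvd_index_two (by omega) h2 (by positivity) ?_⟩
        have h6 : Fintype.card α = 5 ∨ Fintype.card α = 6 := by omega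
        rcases h6 with h6 | h6 <;> rw [h6] <;> decide
    · obtain ⟨x, h1, h2⟩ := two_dvd_index_cycle (α := α) (s := 5) le_rfl h5 (by decide)
      refine ⟨x, ?_, h2⟩
      rw [h1, Nat.prime_dvd_prime_iff_eq hp (by norm_num)]
      exact hp5
  · have hq3 : 3 ≤ q := by
      have := hq.two_le
      omega
    have hqodd : q % 2 = 1 := hq.eq_two_or_odd.resolve_left hq2
    by_cases hp2 : p = 2
    · subst hp2
      by_cases hbig : q + 2 ≤ Fintype.card α
      · obtain ⟨x, h1, h2⟩ := dvd_index_cycle (α := α) (s := q + 2) hq hq2 (by omega) hbig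
          (by rw [Nat.odd_iff]; omega)
        exact ⟨x, by rw [h1]; omega, h2⟩
      · obtain ⟨x, h1, h2⟩ := exists_cycle (α := α) (s := q - 2) (by omega) (by omega) (by rw [Nat.odd_iff]; omega)
        refine ⟨x, by rw [h1]; omega, dvd_index_of_not_dvd hq hq2 (by omega) hqn h2 ?_⟩
        rw [hq.dvd_mul, hq.dvd_factorial]
        rintro (h3 | h3)
        · omega
        · have := Nat.le_of_dvd (by omega) h3
          omega
    · obtain ⟨x, h1, h2⟩ := exists_involution h5 hq hq2 hqn
      refine ⟨x, ?_, h2⟩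
      rw [h1, Nat.prime_dvd_prime_iff_eq hp (by norm_num)]
      exact hp2

end Cfsg.Agent.H524.AltCls
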