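import Mathlib
import Cfsg.Agent.H524.DirPrime

/-!
# Class sizes of elements of prime power order, III: the reduction to simple groups (S4128)

* `dir_step`: the step with two normal `p'`-subgroups;
* `dir_main`: the theorem, modulo facts on simple groups.
-/

set_option autoImplicit false
set_option linter.unusedSectionVars false

namespace Cfsg.Agent.H524.DirRed

open Subgroup Cfsg.Agent.H524.ClassSize
open scoped Pointwise

universe u

section

variable {G : Type*} [Group G] [Finite G] {p : ℕ} [hp : Fact p.Prime]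

theorem card_mul_sylow {M : Subgroup G} [M.Normal] (hMp : ¬ p ∣ Nat.card M) {n : ℕ} (hM : M.index = p ^ n)
    (P : Sylow p G) : Nat.card M * Nat.card P = Nat.card G := by
  have h1 : Nat.card P = p ^ n := by
    rw [Sylow.card_eq_multiplicity, ← Subgroup.card_mul_index M, hM,
      Nat.factorization_mul Nat.card_pos.ne' (pow_pos hp.out.pos n).ne', Finsupp.add_apply,
      Nat.factorization_eq_zero_of_not_dvd hMp, zero_add, hp.out.factorization_pow,
      Finsupp.single_eq_same]
  rw [h1, ← hM, Subgroup.card_mul_index]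

/-- The step with a proper normal subgroup `M₁` of `M`. -/
theorem dir_step (h : Cond G p) {M M₁ : Subgroup G} [hMn : M.Normal] [hM1 : M₁.Normal] (hMp : ¬ p ∣ Nat.card M)
    {n : ℕ} (hM : M.index = p ^ n) (hlt : M₁ < M) (hd : Dir (G ⧸ M₁) p)
    (hsub : ∀ H : Subgroup G, H ≠ ⊤ → Cond H p → Dir H p) : Dir G p := by
  have hM1p : ¬ p ∣ Nat.card M₁ := fun h1 => hMp (h1.trans (Subgroup.card_dvd_of_le hlt.le))
  have hM1c : (Nat.card M₁).Coprime p := ((Nat.Prime.coprime_iff_not_dvd hp.out).2 hM1p).symm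
  have hMc : (Nat.card M).Coprime p := ((Nat.Prime.coprime_iff_not_dvd hp.out).2 hMp).symm
  have hPe : ∀ (P : Sylow p G), ∀ y ∈ (P : Subgroup G), ∃ k : ℕ, orderOf y = p ^ k := by
    intro P y hy
    obtain ⟨k, hk⟩ := P.isPGroup' ⟨y, hy⟩
    have hk' : y ^ p ^ k = 1 := congrArg Subtype.val hk
    obtain ⟨j, -, hj⟩ := (Nat.dvd_prime_pow hp.out).1 (orderOf_dvd_of_pow_eq_one hk')
    exact ⟨j, hj⟩
  -- elements of `M` commute with `p`-elements modulo `M₁`
  have hmod : ∀ m ∈ M, ∀ y : G, (∃ k : ℕ, orderOf y = p ^ k) → m⁻¹ * (y * m * y⁻¹) ∈ M₁ := by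
    rintro m hm y ⟨k, hk⟩
    have h1 : Commute (QuotientGroup.mk' M₁ m) (QuotientGroup.mk' M₁ y) := by
      refine commute_of_pp hp.out (fun x hx => hd x _ hx ?_) ?_
      · have h2 : orderOf (QuotientGroup.mk' M₁ y) ∣ p ^ k := by
          rw [← hk]
          exact orderOf_map_dvd _ y
        obtain ⟨j, -, hj⟩ := (Nat.dvd_prime_pow hp.out).1 h2
        exact ⟨j, hj⟩
      · exact Nat.Coprime.coprime_dvd_left (orderOf_map_dvd _ m) (Sqf.orderOf_coprime hMc hm)
    rw [← QuotientGroup.eq_one_iff]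
    show QuotientGroup.mk' M₁ (m⁻¹ * (y * m * y⁻¹)) = 1
    rw [map_mul, map_mul, map_mul, map_inv, map_inv, ← h1.eq, mul_inv_cancel_right, inv_mul_cancel]
  apply dir_of_commute hM
  intro P
  -- the group `M₁ P`
  obtain ⟨H, hHdef⟩ : ∃ H : Subgroup G, H = M₁ ⊔ (P : Subgroup G) := ⟨_, rfl⟩
  have hPH : (P : Subgroup G) ≤ H := by rw [hHdef]; exact le_sup_right
  have hM1H : M₁ ≤ H := by rw [hHdef]; exact le_sup_left
  have hrel : ∃ j : ℕ, M₁.relIndex H = p ^ j := by
    rw [hHdef, Subgroup.relIndex_sup_left]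
    obtain ⟨k, hk⟩ := IsPGroup.iff_card.1 P.isPGroup'
    have h1 : M₁.relIndex (P : Subgroup G) ∣ p ^ k := by
      rw [← hk]
      exact Subgroup.relIndex_dvd_card M₁ (P : Subgroup G)
    obtain ⟨j, -, hj⟩ := (Nat.dvd_prime_pow hp.out).1 h1
    exact ⟨j, hj⟩
  obtain ⟨j, hj⟩ := hrel
  have hHne : H ≠ ⊤ := by
    rintro rfl
    rw [Subgroup.relIndex_top_right] at hj
    have h1 : M₁.relIndex M ∣ p ^ j := by
      rw [← hj]
      exact Subgroup.relIndex_dvd_index_of_le hlt.le
    have h2 : M₁.relIndex M ∣ Nat.card M := Subgroup.relIndex_dvd_card M₁ M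
    have h3 : M₁.relIndex M = 1 := Nat.eq_one_of_dvd_coprimes (Nat.Coprime.pow_right j hMc) h2 h1
    exact hlt.not_ge (Subgroup.relIndex_eq_one.1 h3)
  have hM1n : (M₁.subgroupOf H).Normal := inferInstance
  have hcond : Cond H p := by
    intro x hx hdvd
    have hxM1 : (x : G) ∈ M₁ := Sqf.mem_of_coprime (N := M₁.subgroupOf H) (n := j) hj (hx.coprime hp.out)
    obtain ⟨m, hm, hcom⟩ := h.exists_conj hM P ((PP.map H.subtype H.subtype_injective).2 hx)
    obtain ⟨d, hd1, hd2⟩ := SignalizersComponents.CoprimeBasic.exists_fixed_in_coset (P : Subgroup G) P.isPGroup' M₁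
      hM1p (fun a _ d hd => hM1.conj_mem d hd a) m (fun a ha => hmod m hm a (hPe P a ha))
    -- `d⁻¹ x d` commutes with `P`
    have h1 : ∀ y ∈ (P : Subgroup G), Commute (d⁻¹ * (x : G) * d) y := by
      intro y hy
      have e1 := hd2 y hy
      have e2 : m * (x : G) * m⁻¹ * y = y * (m * (x : G) * m⁻¹) := (hcom y hy).eq
      show d⁻¹ * (x : G) * d * y = y * (d⁻¹ * (x : G) * d)
      have e3 : d⁻¹ * (x : G) * d = (m * d)⁻¹ * (m * (x : G) * m⁻¹) * (m * d) := by group
      rw [e3]
      calc (m * d)⁻¹ * (m * (x : G) * m⁻¹) * (m * d) * y = (m * d)⁻¹ * (m * (x : G) * m⁻¹) * (y * (m * d)) := by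
            rw [e1]; group
        _ = (m * d)⁻¹ * (m * (x : G) * m⁻¹ * y) * (m * d) := by group
        _ = (m * d)⁻¹ * (y * (m * (x : G) * m⁻¹)) * (m * d) := by rw [e2]
        _ = (m * d)⁻¹ * (y * (m * d)) * ((m * d)⁻¹ * (m * (x : G) * m⁻¹) * (m * d)) := by group
        _ = y * ((m * d)⁻¹ * (m * (x : G) * m⁻¹) * (m * d)) := by rw [e1]; group
    let P' : Sylow p H := P.subtype hPH
    let g : H := ⟨d, hM1H hd1⟩
    have h2 : ((g • P' : Sylow p H) : Subgroup H) ≤ centralizer ({x} : Set H) := by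
      intro z hz
      change z ∈ MulAut.conj g • (P' : Subgroup H) at hz
      rw [Subgroup.mem_pointwise_smul_iff_inv_smul_mem] at hz
      have hz' : d⁻¹ * (z : G) * d ∈ (P : Subgroup G) := by
        have hz2 : g⁻¹ * z * g ∈ (P' : Subgroup H) := by
          simpa [MulAut.smul_def, mul_assoc] using hz
        exact hz2
      have h3 := (h1 _ hz').eq
      rw [mem_centralizer_singleton_iff]
      apply Subtype.ext
      show (z : G) * (x : G) = (x : G) * (z : G)
      calc (z : G) * (x : G) = d * ((d⁻¹ * (z : G) * d) * (d⁻¹ * (x : G) * d)) * d⁻¹ := by group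
        _ = d * ((d⁻¹ * (x : G) * d) * (d⁻¹ * (z : G) * d)) * d⁻¹ := by rw [h3]
        _ = (x : G) * (z : G) := by group
    exact (g • P').not_dvd_index (hdvd.trans (index_dvd_of_le h2))
  have hdH := hsub H hHne hcond
  -- `M₁` commutes with `P`
  have hM1P : ∀ z ∈ M₁, ∀ y ∈ (P : Subgroup G), Commute z y := by
    intro z hz y hy
    have h1 : z ∈ centralizer ({y} : Set G) := by
      refine mem_of_pp hp.out _ (orderOf z) z rfl (Sqf.orderOf_coprime hM1c hz) (fun a ha hap => ?_)
      have haM : a ∈ M₁ := (zpowers_le.2 hz) ha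
      rw [mem_centralizer_singleton_iff]
      have h2 := hdH ⟨a, hM1H haM⟩ ⟨y, hPH hy⟩ ((PP.map H.subtype H.subtype_injective).1 hap) (by
        rw [Subgroup.orderOf_mk]
        exact hPe P y hy)
      exact congrArg Subtype.val h2.eq
    rw [mem_centralizer_singleton_iff] at h1
    exact h1
  intro m hm _ y hy
  obtain ⟨k, hk⟩ := hPe P y hy
  have hz : m⁻¹ * (y * m * y⁻¹) ∈ M₁ := hmod m hm y ⟨k, hk⟩
  have hzy := hM1P _ hz y hy
  have h1 : (m⁻¹ * (y * m * y⁻¹)) ^ p ^ k = 1 := by
    have h2 := hzy.mul_pow (p ^ k)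
    have h3 : m⁻¹ * (y * m * y⁻¹) * y = m⁻¹ * y * m⁻¹⁻¹ := by group
    rw [h3, conj_pow, ← hk, pow_orderOf_eq_one, mul_one, mul_one, mul_inv_cancel] at h2
    rw [← hk]
    exact h2.symm
  have h2 : m⁻¹ * (y * m * y⁻¹) = 1 := by
    have h3 : orderOf (m⁻¹ * (y * m * y⁻¹)) ∣ p ^ k := orderOf_dvd_of_pow_eq_one h1
    have h4 : (orderOf (m⁻¹ * (y * m * y⁻¹))).Coprime p := Sqf.orderOf_coprime hM1c hz
    rw [← orderOf_eq_one_iff]
    exact Nat.eq_one_of_dvd_coprimes (Nat.Coprime.pow_right k h4) dvd_rfl h3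
  show m * y = y * m
  have h3 : y * m * y⁻¹ = m := by
    have : y * m * y⁻¹ = m * (m⁻¹ * (y * m * y⁻¹)) := by group
    rw [this, h2, mul_one]
  rw [mul_inv_eq_iff_eq_mul] at h3
  exact h3.symm

end

/-- **Reduction to simple groups.** -/
theorem dir_main {p : ℕ} [hp : Fact p.Prime]
    (hB : ∀ (S : Type u) [Group S] [Finite S] [IsSimpleGroup S], (¬ ∀ a b : S, a * b = b * a) →
      p ∣ Nat.card S → ∃ x : S, PP p x ∧ p ∣ (centralizer ({x} : Set S)).index)
    (hC : ∀ (S : Type u) [Group S] [Finite S] [IsSimpleGroup S], (¬ ∀ a b : S, a * b = b * a) → CopMove S) :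
    ∀ (n : ℕ) (G : Type u) [Group G] [Finite G], Nat.card G = n → Cond G p → Dir G p := by
  intro n
  induction n using Nat.strong_induction_on with
  | _ n ih =>
    intro G _ _ hn h
    rcases subsingleton_or_nontrivial G with hs | hnt
    · intro x y _ _
      exact Subsingleton.elim _ _
    have hquot : ∀ (N : Subgroup G) [N.Normal], N ≠ ⊥ → Dir (G ⧸ N) p := by
      intro N _ hb
      have hcard := Subgroup.card_eq_card_quotient_mul_card_subgroup N
      have hq : 0 < Nat.card (G ⧸ N) := Nat.card_pos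
      have hN0 : 0 < Nat.card N := Nat.card_pos
      have hN1 : Nat.card N ≠ 1 := fun h1 => hb (Subgroup.card_eq_one.mp h1)
      refine ih (Nat.card (G ⧸ N)) ?_ (G ⧸ N) rfl (h.quotient N)
      rw [← hn, hcard]
      have : 2 ≤ Nat.card N := by omega
      nlinarith
    have hsub : ∀ H : Subgroup G, H ≠ ⊤ → Cond H p → Dir H p := by
      intro H hH hc
      refine ih (Nat.card H) ?_ H rfl hc
      rw [← hn]
      refine lt_of_le_of_ne (Subgroup.card_le_card_group H) ?_
      intro e
      exact hH (Subgroup.eq_top_of_card_eq H e)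
    by_cases hex : ∃ N : Subgroup G, N.Normal ∧ N ≠ ⊥ ∧ N ≠ ⊤
    · obtain ⟨N, hN, hb, ht⟩ := hex
      by_cases hpN : p ∣ Nat.card N
      · -- the Sylow subgroup of `N` is normal in `G`
        obtain ⟨R⟩ : Nonempty (Sylow p N) := inferInstance
        have hdN := hsub N ht (h.normal N)
        have hRn := hdN.normal R
        have hRc : (R : Subgroup N).Characteristic := R.characteristic_of_normal hRn
        have hL : ((R : Subgroup N).map N.subtype).Normal := inferInstance
        have hLp : IsPGroup p ((R : Subgroup N).map N.subtype) := R.isPGroup'.map _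
        refine dir_of_normal_p h _ hLp (hquot _ ?_)
        rw [Ne, Subgroup.map_eq_bot_iff_of_injective _ N.subtype_injective]
        intro e
        have h1 : Nat.card R = 1 := by
          show Nat.card (R : Subgroup N) = 1
          rw [e, Subgroup.card_bot]
        rw [Sylow.card_eq_multiplicity] at h1
        have h2 := (hp.out.dvd_iff_one_le_factorization Nat.card_pos.ne').1 hpN
        have h3 : p ^ 1 ≤ p ^ (Nat.card N).factorization p := Nat.pow_le_pow_right hp.out.pos h2
        rw [h1, pow_one] at h3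
        have := hp.out.two_le
        omega
      · obtain ⟨M, hM, hNM, hMp, k, hk⟩ := exists_normal_compl N hpN (hquot N hb)
        have hMb : M ≠ ⊥ := fun e => hb (le_bot_iff.1 (e ▸ hNM))
        by_cases hmin : ∀ N : Subgroup G, N.Normal → N ≤ M → N ≠ ⊥ → N = M
        · exact dir_of_min h hMp hk hMb hmin (fun _ hab => hC M hab)
        · push Not at hmin
          obtain ⟨M₁, hM1, hle, hb1, hne⟩ := hmin
          exact dir_step h hMp hk (lt_of_le_of_ne hle hne) (hquot M₁ hb1) hsub
    · push Not at hex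
      have hsim : IsSimpleGroup G :=
        { exists_pair_ne := exists_pair_ne G
          eq_bot_or_eq_top_of_normal := fun N hN => by
            by_cases hb : N = ⊥
            · exact Or.inl hb
            · exact Or.inr (hex N hN hb) }
      by_cases hab : ∀ a b : G, a * b = b * a
      · exact fun x y _ _ => hab x y
      · by_cases hpG : p ∣ Nat.card G
        · obtain ⟨x, hx, hd⟩ := hB G hab hpG
          exact absurd hd (h x hx)
        · rintro x y _ ⟨k, hk⟩
          have h1 : orderOf y ∣ Nat.card G := orderOf_dvd_natCard y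
          rw [hk] at h1
          rcases Nat.eq_zero_or_pos k with rfl | hk0
          · rw [pow_zero, orderOf_eq_one_iff] at hk
            rw [hk]
            exact Commute.one_right x
          · exact absurd ((dvd_pow_self p hk0.ne').trans h1) hpG

end Cfsg.Agent.H524.DirRed
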