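import Cfsg.Agent.H524.FourDvd
import Cfsg.Agent.Walter.PairsRot
import Cfsg.Agent.Walter.StepAll

/-!
# A group in which 4 divides no class size is solvable

Short proof from the theorem on simple groups with abelian Sylow 2-subgroups (Walter).
-/

set_option autoImplicit false

namespace Cfsg.Agent.H524.FourMain

open Subgroup Cfsg.Agent.Walter

theorem comm_of_simple (G : Type*) [Group G] [Finite G] [hs : IsSimpleGroup G]
    (h : ∀ x : G, ¬ 4 ∣ (Subgroup.centralizer ({x} : Set G)).index) : IsMulCommutative G := by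
  by_contra hna
  obtain ⟨T⟩ : Nonempty (Sylow 2 G) := inferInstance
  have hsq := FourDvd.sq_eq_one hna h T
  have hcomm : ∀ a ∈ (T : Subgroup G), ∀ b ∈ (T : Subgroup G), a * b = b * a := by
    intro a ha b hb
    have h1 := hsq (a * b) (mul_mem ha hb)
    have h3 : a⁻¹ = a := inv_eq_of_mul_eq_one_left (hsq a ha)
    have h4 : b⁻¹ = b := inv_eq_of_mul_eq_one_left (hsq b hb)
    have h5 : (a * b)⁻¹ = a * b := inv_eq_of_mul_eq_one_left h1
    rw [← h5, _root_.mul_inv_rev, h3, h4]
  have hW : Types.WType G := Main.wType_of_step StepAll.step G hs hna T hcomm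
  have hna' : ∃ a b : G, a * b ≠ b * a := by
    by_contra hcon
    push Not at hcon
    exact hna ⟨⟨hcon⟩⟩
  have h4 : 4 ∣ Nat.card (T : Subgroup G) := by
    rcases hW with hE | hO | hJ
    · obtain ⟨-, -, n, hn, hc⟩ := PSLFacts.IsEvenType.facts hE T
      rw [hc]
      have : 2 ^ 2 ∣ 2 ^ n := pow_dvd_pow 2 hn
      simpa using this
    · rw [(PSLFacts.IsOddType.facts hO T).2.1]
    · rw [(PSLFacts.IsJR.facts hJ T).2.1]; norm_num
  exact FourDvd.false_of_transitive hna h T h4 (PairsRot.exists_normalizer_conj hW hna' T)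

/-- If 4 divides no class size then the group is solvable. -/
theorem solvable_of_not_four_dvd {G : Type*} [Group G] [Finite G]
    (h : ∀ x : G, ¬ 4 ∣ (Subgroup.centralizer ({x} : Set G)).index) : Group.IsSolvable G :=
  FourDvd.solvable_of_simple_case (fun G _ _ _ h => comm_of_simple G h) _ G rfl h

end Cfsg.Agent.H524.FourMain
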