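import Mathlib
import Cfsg.Prelude.Def_Transfer
import Cfsg.Agent.H524.CCSub
import Cfsg.Agent.H524.DirMain

/-!
# Class sizes of `p`-regular elements prime to `q`: reduction to simple groups (S4129)

* `Hyp G p q`: the class sizes of the `p'`-elements are prime to `q`;
* `QN G q`: `G` is `q`-nilpotent;
* `qn_main`: `Hyp G p q` and `G = O^p(G)` imply `QN G q`, if `RegB S p q` holds for simple groups;
* `comm_of_hyp`: then the Sylow `q`-subgroups are abelian; `reg_main`: the theorem.
-/

set_option autoImplicit false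
set_option linter.unusedSectionVars false

namespace Cfsg.Agent.H524.DirRed

open Subgroup Cfsg.Agent.H524.ClassSize
open scoped Pointwise

universe u

/-- The class sizes of the `p'`-elements are prime to `q`. -/
def Hyp (G : Type*) [Group G] (p q : ℕ) : Prop :=
  ∀ x : G, ¬ p ∣ orderOf x → ¬ q ∣ (centralizer ({x} : Set G)).index

/-- `q`-nilpotent groups. -/
def QN (G : Type*) [Group G] (q : ℕ) : Prop :=
  ∃ K : Subgroup G, K.Normal ∧ ¬ q ∣ Nat.card K ∧ ∃ n : ℕ, K.index = q ^ n

section

variable {G : Type*} [Group G] [Finite G] {p q : ℕ} [hp : Fact p.Prime] [hq : Fact q.Prime]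

/-- Lifting of `p'`-elements. -/
theorem exists_lift_coprime (N : Subgroup G) [N.Normal] {x : G ⧸ N} (hx : ¬ p ∣ orderOf x) :
    ∃ b : G, QuotientGroup.mk' N b = x ∧ ¬ p ∣ orderOf b := by
  obtain ⟨y, rfl⟩ := QuotientGroup.mk'_surjective N x
  obtain ⟨a, b, rfl, hc, ⟨k, ha⟩, hb, ha1, hb1⟩ := exists_decomp p y
  refine ⟨b, ?_, fun h => hp.out.one_lt.ne' (Nat.Coprime.eq_one_of_dvd hb.symm h)⟩
  have h1 : QuotientGroup.mk' N a ∈ zpowers (QuotientGroup.mk' N (a * b)) := by
    obtain ⟨i, hi⟩ := ha1
    refine ⟨i, ?_⟩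
    show QuotientGroup.mk' N (a * b) ^ i = _
    rw [← map_zpow]
    exact congrArg _ hi
  have h2 : orderOf (QuotientGroup.mk' N a) ∣ orderOf (QuotientGroup.mk' N (a * b)) :=
    orderOf_dvd_of_mem_zpowers h1
  have h3 : orderOf (QuotientGroup.mk' N a) ∣ p ^ k := by
    rw [← ha]
    exact orderOf_map_dvd _ a
  have h4 : orderOf (QuotientGroup.mk' N a) = 1 := by
    obtain ⟨j, -, hj⟩ := (Nat.dvd_prime_pow hp.out).1 h3
    rcases Nat.eq_zero_or_pos j with rfl | hj0
    · rw [hj, pow_zero]
    · exfalso
      apply hx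
      refine dvd_trans ?_ h2
      rw [hj]
      exact dvd_pow_self p hj0.ne'
  rw [orderOf_eq_one_iff] at h4
  rw [map_mul, h4, one_mul]

theorem Hyp.quotient (h : Hyp G p q) (N : Subgroup G) [N.Normal] : Hyp (G ⧸ N) p q := by
  intro x hx hdvd
  obtain ⟨y, rfl, hy⟩ := exists_lift_coprime N hx
  apply h y hy
  have h1 : centralizer ({y} : Set G) ≤
      (centralizer ({QuotientGroup.mk' N y} : Set (G ⧸ N))).comap (QuotientGroup.mk' N) := by
    intro z hz
    rw [mem_centralizer_singleton_iff] at hz
    rw [mem_comap, mem_centralizer_singleton_iff, ← map_mul, hz, map_mul]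
  have h2 := Subgroup.index_dvd_of_le h1
  rw [Subgroup.index_comap_of_surjective _ (QuotientGroup.mk'_surjective N)] at h2
  exact hdvd.trans h2

theorem Hyp.normal (h : Hyp G p q) (N : Subgroup G) [N.Normal] : Hyp N p q := by
  intro x hx hdvd
  apply h (x : G) (by rwa [Subgroup.orderOf_coe])
  refine dvd_trans ?_ (Sqf.relIndex_dvd N (centralizer ({(x : G)} : Set G)))
  have h3 : (centralizer ({(x : G)} : Set G)).subgroupOf N = centralizer ({x} : Set N) := by
    ext y
    rw [mem_subgroupOf, mem_centralizer_singleton_iff, mem_centralizer_singleton_iff]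
    exact ⟨fun h => Subtype.ext h, fun h => congrArg Subtype.val h⟩
  rw [Subgroup.relIndex, h3]
  exact hdvd

theorem not_dvd_iff_coprime {x : G} : ¬ p ∣ orderOf x ↔ (orderOf x).Coprime p := by
  rw [Nat.coprime_comm, hp.out.coprime_iff_not_dvd]

theorem pResidual_quotient (h : Cfsg.pResidual p G = ⊤) (N : Subgroup G) [N.Normal] :
    Cfsg.pResidual p (G ⧸ N) = ⊤ := by
  rw [eq_top_iff, ← Subgroup.map_top_of_surjective _ (QuotientGroup.mk'_surjective N), ← h, Cfsg.pResidual,
    MonoidHom.map_closure, Subgroup.closure_le]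
  rintro _ ⟨x, hx, rfl⟩
  apply Subgroup.subset_closure
  exact Nat.Coprime.coprime_dvd_left (orderOf_map_dvd _ x) hx

omit [Finite G] hp in
theorem pResidual_normal : (Cfsg.pResidual p G).Normal := by
  refine ⟨fun x hx g => ?_⟩
  have h1 : (Cfsg.pResidual p G).map (MulAut.conj g).toMonoidHom ≤ Cfsg.pResidual p G := by
    rw [Cfsg.pResidual, MonoidHom.map_closure, Subgroup.closure_le]
    rintro _ ⟨y, hy, rfl⟩
    apply Subgroup.subset_closure
    show (orderOf (MulAut.conj g y)).Coprime p
    rw [MulEquiv.orderOf_eq]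
    exact hy
  exact h1 ⟨x, hx, rfl⟩

omit [Finite G] hp in
theorem pResidual_self : Cfsg.pResidual p (Cfsg.pResidual p G) = ⊤ := by
  have h1 : (Cfsg.pResidual p (Cfsg.pResidual p G)).map (Cfsg.pResidual p G).subtype = Cfsg.pResidual p G := by
    apply le_antisymm (Subgroup.map_subtype_le _)
    conv_lhs => rw [Cfsg.pResidual]
    rw [Subgroup.closure_le]
    intro x hx
    have hxR : x ∈ Cfsg.pResidual p G := Subgroup.subset_closure hx
    refine ⟨⟨x, hxR⟩, Subgroup.subset_closure ?_, rfl⟩
    show (orderOf (⟨x, hxR⟩ : Cfsg.pResidual p G)).Coprime p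
    rw [Subgroup.orderOf_mk]
    exact hx
  rw [eq_top_iff]
  intro x _
  have h2 : (x : G) ∈ (Cfsg.pResidual p (Cfsg.pResidual p G)).map (Cfsg.pResidual p G).subtype := by
    rw [h1]
    exact x.2
  obtain ⟨y, hy, e⟩ := h2
  have : y = x := Subtype.ext e
  rwa [← this]

/-- A normal `q`-complement of a normal subgroup is normal. -/
theorem normal_map {R : Subgroup G} [hR : R.Normal] {K : Subgroup R} [K.Normal] (hK : ¬ q ∣ Nat.card K) {n : ℕ}
    (hidx : K.index = q ^ n) : (K.map R.subtype).Normal := by
  refine ⟨?_⟩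
  rintro _ ⟨k, hk, rfl⟩ g
  have hc : (Nat.card K).Coprime q := ((Nat.Prime.coprime_iff_not_dvd hq.out).2 hK).symm
  have h1 : g * (k : G) * g⁻¹ ∈ R := hR.conj_mem k k.2 g
  refine ⟨⟨_, h1⟩, ?_, rfl⟩
  apply Sqf.mem_of_coprime hidx
  rw [Subgroup.orderOf_mk]
  have h2 : orderOf (g * (k : G) * g⁻¹) = orderOf (k : G) := MulEquiv.orderOf_eq (MulAut.conj g) (k : G)
  rw [h2, Subgroup.orderOf_coe]
  exact Sqf.orderOf_coprime hc hk

/-- Extension by a normal `q'`-subgroup. -/
theorem QN.of_quotient (N : Subgroup G) [N.Normal] (hN : ¬ q ∣ Nat.card N) (h : QN (G ⧸ N) q) : QN G q := by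
  obtain ⟨K, hK, hKq, n, hn⟩ := h
  refine ⟨K.comap (QuotientGroup.mk' N), inferInstance, ?_, n, ?_⟩
  · have h2 : Nat.card (K.comap (QuotientGroup.mk' N)) = Nat.card K * Nat.card N := by
      have h3 := Subgroup.card_mul_index (K.comap (QuotientGroup.mk' N))
      rw [Subgroup.index_comap_of_surjective _ (QuotientGroup.mk'_surjective N)] at h3
      have h4 := Subgroup.card_mul_index K
      have h5 := Subgroup.card_eq_card_quotient_mul_card_subgroup N
      rw [← h4] at h5
      have h6 : 0 < K.index := Nat.pos_of_ne_zero K.index_ne_zero_of_finite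
      have h7 : Nat.card (K.comap (QuotientGroup.mk' N)) * K.index = (Nat.card K * Nat.card N) * K.index := by
        rw [h3, h5]; ring
      exact Nat.eq_of_mul_eq_mul_right h6 h7
    rw [h2]
    intro h
    rcases hq.out.dvd_mul.1 h with h | h
    · exact hKq h
    · exact hN h
  · rw [Subgroup.index_comap_of_surjective _ (QuotientGroup.mk'_surjective N), hn]

theorem QN.of_pGroup (h : IsPGroup q G) : QN G q := by
  obtain ⟨n, hn⟩ := IsPGroup.iff_card.1 h
  refine ⟨⊥, inferInstance, ?_, n, by rw [Subgroup.index_bot, hn]⟩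
  rw [Subgroup.card_bot]
  exact hq.out.not_dvd_one

/-- A normal `q`-subgroup is centralized by all `p'`-elements. -/
theorem Hyp.commute (h : Hyp G p q) (N : Subgroup G) [hN : N.Normal] (hNq : IsPGroup q N) {x : G}
    (hx : ¬ p ∣ orderOf x) {y : G} (hy : y ∈ N) : Commute x y := by
  obtain ⟨Q, -, hQ⟩ := exists_sylow_between (h x hx) (A := ⊥) (IsPGroup.of_bot) bot_le
  have hNQ : N ≤ Q := by
    obtain ⟨R, hR⟩ := hNq.exists_le_sylow
    obtain ⟨g, hg⟩ := MulAction.exists_smul_eq G R Q
    intro y hy
    have h1 : g⁻¹ * y * g ∈ N := by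
      have := hN.conj_mem y hy g⁻¹
      rwa [inv_inv] at this
    have h2 : g⁻¹ * y * g ∈ (R : Subgroup G) := hR h1
    rw [← hg]
    change y ∈ MulAut.conj g • (R : Subgroup G)
    rw [Subgroup.mem_pointwise_smul_iff_inv_smul_mem]
    simpa [MulAut.smul_def, mul_assoc] using h2
  have := hQ (hNQ hy)
  rw [mem_centralizer_singleton_iff] at this
  exact this.symm

/-- A central `q`-subgroup with `q'`-quotient has a normal complement consisting of the `q'`-elements. -/
theorem exists_compl_of_central {K : Type*} [Group K] [Finite K] (N : Subgroup K) [N.Normal] (hN : IsPGroup q N)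
    (hc : ∀ a ∈ N, ∀ b : K, Commute a b) (hidx : ¬ q ∣ N.index) :
    ∃ H : Subgroup K, H.Normal ∧ ¬ q ∣ Nat.card H ∧ ∃ n : ℕ, H.index = q ^ n := by
  obtain ⟨n, hn⟩ := IsPGroup.iff_card.1 hN
  have hcop : (Nat.card N).Coprime N.index := by
    rw [hn]
    exact Nat.Coprime.pow_left n ((Nat.Prime.coprime_iff_not_dvd hq.out).2 hidx)
  obtain ⟨H, hH⟩ := Subgroup.exists_right_complement'_of_coprime hcop
  refine ⟨H, ?_, ?_, n, ?_⟩
  · have htop : N ⊔ H = ⊤ := hH.sup_eq_top
    refine ⟨fun h hh g => ?_⟩
    have hg : g ∈ N ⊔ H := by rw [htop]; trivial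
    rw [← SetLike.mem_coe, Subgroup.normal_mul N H] at hg
    obtain ⟨a, ha, b, hb, rfl⟩ := hg
    have h1 : a * b * h * (a * b)⁻¹ = a * (b * h * b⁻¹) * a⁻¹ := by group
    rw [h1, (hc a ha _).eq, mul_inv_cancel_right]
    exact mul_mem (mul_mem hb hh) (inv_mem hb)
  · rwa [← hH.symm.index_eq_card]
  · rw [hH.index_eq_card, hn]

end

/-- **Reduction to simple groups**, the case `G = O^p(G)`. -/
theorem qn_main {p q : ℕ} [hp : Fact p.Prime] [hq : Fact q.Prime] (hpq : p ≠ q)
    (hA : ∀ (S : Type u) [Group S] [Finite S] [IsSimpleGroup S], (¬ ∀ a b : S, a * b = b * a) →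
      q ∣ Nat.card S → RegB S p q) :
    ∀ (n : ℕ) (G : Type u) [Group G] [Finite G], Nat.card G = n → Hyp G p q → Cfsg.pResidual p G = ⊤ → QN G q := by
  intro n
  induction n using Nat.strong_induction_on with
  | _ n ih =>
    intro G _ _ hn h hres
    rcases subsingleton_or_nontrivial G with hs | hnt
    · exact QN.of_pGroup (IsPGroup.of_card (n := 0) (by rw [pow_zero]; exact Nat.card_unique))
    have hquot : ∀ (N : Subgroup G) [N.Normal], N ≠ ⊥ → QN (G ⧸ N) q := by
      intro N _ hb
      have hcard := Subgroup.card_eq_card_quotient_mul_card_subgroup N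
      have hq : 0 < Nat.card (G ⧸ N) := Nat.card_pos
      have hN0 : 0 < Nat.card N := Nat.card_pos
      have hN1 : Nat.card N ≠ 1 := fun h1 => hb (Subgroup.card_eq_one.mp h1)
      refine ih (Nat.card (G ⧸ N)) ?_ (G ⧸ N) rfl (h.quotient N) (pResidual_quotient hres N)
      rw [← hn, hcard]
      have : 2 ≤ Nat.card N := by omega
      nlinarith
    by_cases hO : ∃ N : Subgroup G, N.Normal ∧ N ≠ ⊥ ∧ ¬ q ∣ Nat.card N
    · obtain ⟨N, hN, hb, hNq⟩ := hO
      exact QN.of_quotient N hNq (hquot N hb)
    push Not at hO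
    by_cases hex : ∃ N : Subgroup G, N.Normal ∧ N ≠ ⊥ ∧ N ≠ ⊤
    · obtain ⟨L, hL, hLb, hLt⟩ := hex
      -- the residual of `L`
      have hRn0 : (Cfsg.pResidual p L).Normal := pResidual_normal
      have hRchar : (Cfsg.pResidual p L).Characteristic := by
        rw [Subgroup.characteristic_iff_map_le]
        intro φ
        rw [Cfsg.pResidual, MonoidHom.map_closure, Subgroup.closure_le]
        rintro _ ⟨y, hy, rfl⟩
        apply Subgroup.subset_closure
        show (orderOf (φ y)).Coprime p
        rw [MulEquiv.orderOf_eq]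
        exact hy
      obtain ⟨N, hNdef⟩ : ∃ N : Subgroup G, N = (Cfsg.pResidual p L).map L.subtype := ⟨_, rfl⟩
      have hNn : N.Normal := by rw [hNdef]; infer_instance
      have hNL : N ≤ L := by rw [hNdef]; exact Subgroup.map_subtype_le _
      have hNres : Cfsg.pResidual p N = ⊤ := by
        subst hNdef
        have e : (Cfsg.pResidual p L) ≃* ((Cfsg.pResidual p L).map L.subtype) :=
          (Cfsg.pResidual p L).equivMapOfInjective _ L.subtype_injective
        have h1 : ((Cfsg.pResidual p (Cfsg.pResidual p L)).map e.toMonoidHom) ≤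
            Cfsg.pResidual p ((Cfsg.pResidual p L).map L.subtype) := by
          have h2 : Cfsg.pResidual p (Cfsg.pResidual p L) =
            Subgroup.closure {g : Cfsg.pResidual p L | Nat.Coprime (orderOf g) p} := rfl
          rw [h2, MonoidHom.map_closure, Subgroup.closure_le]
          rintro _ ⟨x, hx, rfl⟩
          apply Subgroup.subset_closure
          show (orderOf (e x)).Coprime p
          rw [MulEquiv.orderOf_eq]
          exact hx
        rw [pResidual_self, Subgroup.map_top_of_surjective e.toMonoidHom e.surjective] at h1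
        exact top_le_iff.1 h1
      have hNlt : Nat.card N < Nat.card G := by
        refine lt_of_le_of_ne (Subgroup.card_le_card_group N) ?_
        intro e
        have := Subgroup.eq_top_of_card_eq N e
        rw [this] at hNL
        exact hLt (top_le_iff.1 hNL)
      obtain ⟨K, hK, hKq, m, hm⟩ := ih (Nat.card N) (by omega) N rfl (h.normal N) hNres
      have hKn := normal_map hKq hm
      have hKb : K.map N.subtype = ⊥ := by
        by_contra hne
        apply hKq
        have := hO _ hKn hne
        rwa [Subgroup.card_map_of_injective N.subtype_injective] at this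
      have hK1 : K = ⊥ := (Subgroup.map_eq_bot_iff_of_injective _ N.subtype_injective).1 hKb
      have hNq : IsPGroup q N := by
        rw [IsPGroup.iff_card]
        refine ⟨m, ?_⟩
        rw [hK1, Subgroup.index_bot] at hm
        exact hm
      -- `N` is not trivial
      have hNb : N ≠ ⊥ := by
        intro e
        rw [hNdef, Subgroup.map_eq_bot_iff_of_injective _ L.subtype_injective] at e
        -- `L` is a `p`-group
        have hLp : IsPGroup p L := by
          rw [IsPGroup.iff_card]
          have h1 : ∀ {d : ℕ}, d.Prime → d ∣ Nat.card L → d = p := by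
            intro d hd hdd
            by_contra hne
            have : Fact d.Prime := ⟨hd⟩
            obtain ⟨x, hx⟩ := exists_prime_orderOf_dvd_card' d hdd
            have h2 : x ∈ Cfsg.pResidual p L := by
              apply Subgroup.subset_closure
              show (orderOf x).Coprime p
              rw [hx]
              exact (Nat.coprime_primes hd hp.out).2 hne
            rw [e, Subgroup.mem_bot] at h2
            rw [h2, orderOf_one] at hx
            exact hd.one_lt.ne hx
          exact ⟨_, Nat.eq_prime_pow_of_unique_prime_dvd Nat.card_pos.ne' h1⟩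
        have h2 := hO L hL hLb
        obtain ⟨k, hk⟩ := IsPGroup.iff_card.1 hLp
        rw [hk] at h2
        exact hpq ((Nat.prime_dvd_prime_iff_eq hq.out hp.out).1 (hq.out.dvd_of_dvd_pow h2)).symm
      -- `N` is central
      have hNc : ∀ a ∈ N, ∀ b : G, Commute a b := by
        intro a ha b
        have h1 : (⊤ : Subgroup G) ≤ centralizer ({a} : Set G) := by
          rw [← hres, Cfsg.pResidual, Subgroup.closure_le]
          intro x hx
          show x ∈ centralizer ({a} : Set G)
          rw [mem_centralizer_singleton_iff]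
          exact (h.commute N hNq (not_dvd_iff_coprime.2 hx) ha).eq
        have h2 := h1 (show b ∈ (⊤ : Subgroup G) from trivial)
        rw [mem_centralizer_singleton_iff] at h2
        exact h2.symm
      obtain ⟨K', hK', hKq', k, hk⟩ := hquot N hNb
      -- the preimage of the complement
      obtain ⟨M, hMdef⟩ : ∃ M : Subgroup G, M = K'.comap (QuotientGroup.mk' N) := ⟨_, rfl⟩
      have hMn : M.Normal := by rw [hMdef]; infer_instance
      have hNM : N ≤ M := by
        rw [hMdef]
        intro x hx
        rw [mem_comap]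
        have : QuotientGroup.mk' N x = 1 := (QuotientGroup.eq_one_iff x).2 hx
        rw [this]
        exact one_mem _
      have hrel : N.relIndex M = Nat.card K' := by
        have h1 : Nat.card M = Nat.card K' * Nat.card N := by
          have h3 := Subgroup.card_mul_index M
          rw [hMdef, Subgroup.index_comap_of_surjective _ (QuotientGroup.mk'_surjective N)] at h3
          have h4 := Subgroup.card_mul_index K'
          have h5 := Subgroup.card_eq_card_quotient_mul_card_subgroup N
          rw [← h4] at h5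
          have h6 : 0 < K'.index := Nat.pos_of_ne_zero K'.index_ne_zero_of_finite
          have h7 : Nat.card (K'.comap (QuotientGroup.mk' N)) * K'.index = (Nat.card K' * Nat.card N) * K'.index := by
            rw [h3, h5]; ring
          rw [hMdef]
          exact Nat.eq_of_mul_eq_mul_right h6 h7
        have h2 := Subgroup.card_mul_index (N.subgroupOf M)
        rw [Nat.card_congr (Subgroup.subgroupOfEquivOfLe hNM).toEquiv, h1, mul_comm (Nat.card K')] at h2
        exact Nat.eq_of_mul_eq_mul_left Nat.card_pos h2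
      have hNMn : (N.subgroupOf M).Normal := inferInstance
      have hNMq : IsPGroup q (N.subgroupOf M) := by
        have := hNq.comap_of_injective M.subtype M.subtype_injective
        exact this
      obtain ⟨H, hH, hHq, j, hj⟩ := exists_compl_of_central (N.subgroupOf M) hNMq
        (fun a ha b => by
          have := hNc a ha b
          exact Subtype.ext this.eq) (by
          show ¬ q ∣ N.relIndex M
          rw [hrel]
          exact hKq')
      have hHn := normal_map hHq hj
      have hHb : H.map M.subtype = ⊥ := by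
        by_contra hne
        apply hHq
        have := hO _ hHn hne
        rwa [Subgroup.card_map_of_injective M.subtype_injective] at this
      have hH1 : H = ⊥ := (Subgroup.map_eq_bot_iff_of_injective _ M.subtype_injective).1 hHb
      -- `M` is a `q`-group
      apply QN.of_pGroup
      rw [IsPGroup.iff_card]
      rw [hH1, Subgroup.index_bot] at hj
      have h1 : M.index = q ^ k := by
        rw [hMdef, Subgroup.index_comap_of_surjective _ (QuotientGroup.mk'_surjective N), hk]
      exact ⟨j + k, by rw [← Subgroup.card_mul_index M, hj, h1, pow_add]⟩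
    · push Not at hex
      have hsim : IsSimpleGroup G :=
        { exists_pair_ne := exists_pair_ne G
          eq_bot_or_eq_top_of_normal := fun N hN => by
            by_cases hb : N = ⊥
            · exact Or.inl hb
            · exact Or.inr (hex N hN hb) }
      have hqG : q ∣ Nat.card G := by
        have := hO ⊤ inferInstance (by
          intro e
          exact (bot_ne_top : (⊥ : Subgroup G) ≠ ⊤) e.symm)
        rwa [Subgroup.card_top] at this
      by_cases hab : ∀ a b : G, a * b = b * a
      · -- cyclic of order `q`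
        apply QN.of_pGroup
        obtain ⟨x, hx⟩ := exists_prime_orderOf_dvd_card' q hqG
        have hn1 : (zpowers x).Normal := ⟨fun y hy g => by
          rw [hab g y, mul_inv_cancel_right]
          exact hy⟩
        have h1 : zpowers x = ⊤ := by
          rcases hn1.eq_bot_or_eq_top with e | e
          · exfalso
            rw [zpowers_eq_bot] at e
            rw [e, orderOf_one] at hx
            exact hq.out.one_lt.ne hx
          · exact e
        rw [IsPGroup.iff_card]
        refine ⟨1, ?_⟩
        rw [pow_one, ← hx, ← Nat.card_zpowers, h1, Subgroup.card_top]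
      · obtain ⟨x, hx, hd⟩ := hA G hab hqG
        exact absurd hd (h x hx)

/-- Sylow `q`-subgroups are abelian. -/
theorem comm_of_hyp {G : Type*} [Group G] [Finite G] {p q : ℕ} [hp : Fact p.Prime] [hq : Fact q.Prime] (hpq : p ≠ q)
    (h : Hyp G p q) (hqn : QN (Cfsg.pResidual p G) q) (Q : Sylow q G) : IsMulCommutative (Q : Subgroup G) := by
  obtain ⟨K, hK, hKq, n, hn⟩ := hqn
  have hRn : (Cfsg.pResidual p G).Normal := pResidual_normal
  have hKn := normal_map hKq hn
  set L := K.map (Cfsg.pResidual p G).subtype with hL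
  have hLq : ¬ q ∣ Nat.card L := by
    rw [hL, Subgroup.card_map_of_injective (Cfsg.pResidual p G).subtype_injective]
    exact hKq
  have hLc : (Nat.card L).Coprime q := ((Nat.Prime.coprime_iff_not_dvd hq.out).2 hLq).symm
  have hel : ∀ (P : Sylow q G), ∀ y ∈ (P : Subgroup G), ∃ k : ℕ, orderOf y = q ^ k := by
    intro P y hy
    obtain ⟨k, hk⟩ := P.isPGroup' ⟨y, hy⟩
    have hk' : y ^ q ^ k = 1 := congrArg Subtype.val hk
    obtain ⟨j, -, hj⟩ := (Nat.dvd_prime_pow hq.out).1 (orderOf_dvd_of_pow_eq_one hk')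
    exact ⟨j, hj⟩
  have hcopq : ∀ (P : Sylow q G), ∀ y ∈ (P : Subgroup G), (orderOf y).Coprime p := by
    intro P y hy
    obtain ⟨k, hk⟩ := hel P y hy
    rw [hk]
    exact Nat.Coprime.pow_left k ((Nat.coprime_primes hq.out hp.out).2 hpq.symm)
  have hQR : ∀ (P : Sylow q G), (P : Subgroup G) ≤ Cfsg.pResidual p G := fun P y hy =>
    Subgroup.subset_closure (hcopq P y hy)
  have key : ∀ a ∈ (Q : Subgroup G), ∀ b ∈ (Q : Subgroup G), a * b * a⁻¹ * b⁻¹ ∈ L := by
    intro a ha b hb
    obtain ⟨P, -, hP⟩ := exists_sylow_between (h a (not_dvd_iff_coprime.2 (hcopq Q a ha))) (A := ⊥)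
      (IsPGroup.of_bot) bot_le
    -- `R = L P`
    have hR : (Cfsg.pResidual p G) ≤ L ⊔ (P : Subgroup G) := by
      have h1 : K ⊔ ((P.subtype (hQR P) : Sylow q (Cfsg.pResidual p G)) : Subgroup (Cfsg.pResidual p G)) = ⊤ :=
        sup_sylow_eq_top hn _
      have h2 := congrArg (Subgroup.map (Cfsg.pResidual p G).subtype) h1
      rw [Subgroup.map_sup, ← MonoidHom.range_eq_map, Subgroup.range_subtype] at h2
      rw [← h2]
      refine sup_le_sup_left ?_ _
      rintro _ ⟨y, hy, rfl⟩
      exact hy
    have hb' := hR (hQR Q hb)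
    rw [← SetLike.mem_coe, Subgroup.normal_mul L (P : Subgroup G)] at hb'
    obtain ⟨l, hl, c, hc, rfl⟩ := hb'
    have hca := hP hc
    rw [mem_centralizer_singleton_iff] at hca
    have e1 : a * (l * c) * a⁻¹ * (l * c)⁻¹ = (a * l * a⁻¹) * (a * c * a⁻¹ * c⁻¹) * l⁻¹ := by group
    have e2 : a * c * a⁻¹ * c⁻¹ = 1 := by
      rw [← hca]; group
    show a * (l * c) * a⁻¹ * (l * c)⁻¹ ∈ L
    rw [e1, e2, mul_one]
    exact mul_mem (hKn.conj_mem l hl a) (inv_mem hl)
  refine ⟨⟨?_⟩⟩
  rintro ⟨a, ha⟩ ⟨b, hb⟩
  apply Subtype.ext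
  show a * b = b * a
  have h1 := key a ha b hb
  have h2 : a * b * a⁻¹ * b⁻¹ ∈ (Q : Subgroup G) := mul_mem (mul_mem (mul_mem ha hb) (inv_mem ha)) (inv_mem hb)
  obtain ⟨k, hk⟩ := hel Q _ h2
  have h3 : (orderOf (a * b * a⁻¹ * b⁻¹)).Coprime q := Sqf.orderOf_coprime hLc h1
  have h4 : a * b * a⁻¹ * b⁻¹ = 1 := by
    rw [← orderOf_eq_one_iff]
    exact Nat.eq_one_of_dvd_coprimes (Nat.Coprime.pow_right k h3) dvd_rfl (by rw [hk])
  calc a * b = (a * b * a⁻¹ * b⁻¹) * (b * a) := by group
    _ = b * a := by rw [h4, one_mul]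

/-- **The theorem**, modulo simple groups. -/
theorem reg_main {p q : ℕ} [hp : Fact p.Prime] [hq : Fact q.Prime] (hpq : p ≠ q)
    (hA : ∀ (S : Type u) [Group S] [Finite S] [IsSimpleGroup S], (¬ ∀ a b : S, a * b = b * a) →
      q ∣ Nat.card S → RegB S p q) (G : Type u) [Group G] [Finite G] (h : Hyp G p q) :
    Cfsg.HasNormalPComplement q ↥(Cfsg.pResidual p G) ∧ ∀ Q : Sylow q G, IsMulCommutative (Q : Subgroup G) := by
  have hRn : (Cfsg.pResidual p G).Normal := pResidual_normal
  have hqn : QN (Cfsg.pResidual p G) q :=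
    qn_main hpq hA _ (Cfsg.pResidual p G) rfl (h.normal _) pResidual_self
  refine ⟨?_, fun Q => comm_of_hyp hpq h hqn Q⟩
  obtain ⟨K, hK, hKq, n, hn⟩ := hqn
  obtain ⟨P⟩ : Nonempty (Sylow q (Cfsg.pResidual p G)) := inferInstance
  refine ⟨P, K, hK, ?_⟩
  refine Subgroup.isComplement'_of_card_mul_and_disjoint (card_mul_sylow hKq hn P) ?_
  rw [disjoint_iff]
  obtain ⟨k, hk⟩ := IsPGroup.iff_card.1 P.isPGroup'
  have h1 : Nat.card (K ⊓ (P : Subgroup (Cfsg.pResidual p G)) : Subgroup (Cfsg.pResidual p G)) ∣ Nat.card K :=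
    Subgroup.card_dvd_of_le inf_le_left
  have h2 : Nat.card (K ⊓ (P : Subgroup (Cfsg.pResidual p G)) : Subgroup (Cfsg.pResidual p G)) ∣ q ^ k := by
    rw [← hk]
    exact Subgroup.card_dvd_of_le inf_le_right
  have hc : (Nat.card K).Coprime q := ((Nat.Prime.coprime_iff_not_dvd hq.out).2 hKq).symm
  exact Subgroup.card_eq_one.1 (Nat.eq_one_of_dvd_coprimes (Nat.Coprime.pow_right k hc) h1 h2)

end Cfsg.Agent.H524.DirRed
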