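import Mathlib
import Cfsg.Agent.H524.SporPrim
import Cfsg.Agent.H461.Cop.ON
import Cfsg.Agent.H393.Iso.ON

/-!
# `PrimB` for `O'N`

The element `v a` (`v` of order 4, `a` an involution of `C(v) = 4 · L₃(4)`) has a 2-group as centralizer.
-/

set_option autoImplicit false

namespace Cfsg.Agent.H524.SporTool

open Subgroup Cfsg Cfsg.Agent.H524.DirRed
open Cfsg.Spor (ON)
open Cfsg.Agent.SporadicB.ON45Word (on)
open Cfsg.Agent.KFacts.ON.Words Cfsg.Agent.KFacts.ON.Struct

/-- a prime order element commuting with `v a` has order 2 -/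
theorem two_of_comm_va {x : ON} (hx : (orderOf x).Prime) (h : x * (v * on .a) = (v * on .a) * x) : orderOf x = 2 := by
  by_contra hne
  have ho : Odd (orderOf x) := hx.odd_of_ne_two hne
  have hav : on .a * v = v * on .a := mem_J.1 aJ
  have hsq : (v * on .a) * (v * on .a) = on .f := by
    calc (v * on .a) * (v * on .a) = v * (on .a * v) * on .a := by group
      _ = v * v * (on .a * on .a) := by rw [hav]; group
      _ = on .f := by rw [aa, mul_one, vv]
  have hxf : x * on .f = on .f * x := by
    rw [← hsq]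
    have hc : Commute x (v * on .a) := h
    exact (hc.mul_right hc)
  have hxK := KFacts.ON.Struct.mem_K0.2 hxf
  have hxJ : x ∈ J := by
    have h1 : x * x ∈ J := @Subgroup.mul_self_mem_of_index_two _ _ _ index_J ⟨x, hxK⟩
    obtain ⟨k, hk⟩ := ho
    have h2 : x = (x * x) ^ (k + 1) := by
      rw [← pow_two, ← pow_mul, show 2 * (k + 1) = orderOf x + 1 by omega, pow_succ, pow_orderOf_eq_one, one_mul]
    rw [h2]
    exact pow_mem h1 _
  have hxv : Commute x v := mem_J.1 hxJ
  have hxa : Commute x (on .a) := by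
    have hc : Commute x (v * on .a) := h
    have h3 := (hxv.inv_right).mul_right hc
    rwa [inv_mul_cancel_left] at h3
  exact hne (H461.Cop.two_of_comm hx hxv hxa)

theorem orderOf_va : orderOf (v * on .a : ON) = 2 ^ 2 := by
  have hav : on .a * v = v * on .a := mem_J.1 aJ
  have hsq : (v * on .a) ^ 2 = on .f := by
    rw [pow_two]
    calc (v * on .a) * (v * on .a) = v * (on .a * v) * on .a := by group
      _ = v * v * (on .a * on .a) := by rw [hav]; group
      _ = on .f := by rw [aa, mul_one, vv]
  have : Fact (Nat.Prime 2) := ⟨Nat.prime_two⟩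
  refine orderOf_eq_prime_pow (n := 1) ?_ ?_
  · rw [pow_one, hsq]
    exact f_ne_one
  · rw [show (2 : ℕ) ^ (1 + 1) = 2 * 2 by norm_num, pow_mul, hsq, pow_two, ff]

theorem primB_on {G : Type*} [Group G] [Finite G] (h : Spor.IsoON G) :
    ∀ p : ℕ, p.Prime → p ∣ Nat.card G → PrimB G p := by
  have hN := NotCT.Orders.on h
  have hna := H393.Iso.na_on h
  intro p hp hd
  by_cases hp2 : p = 2
  · subst hp2
    exact primB_two hna (by norm_num) (by norm_num) (by rw [hN]; norm_num) (by rw [hN]; norm_num)
  · obtain ⟨e⟩ := h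
    have hf : Finite ON := Finite.of_equiv _ e.toEquiv
    refine PrimB.congr e.symm ?_
    refine primB_of_not_comm (r := 2) (k := 2) hp Nat.prime_two (Ne.symm hp2) ?_ orderOf_va fun x hx hc => ?_
    · rwa [← Nat.card_congr e.toEquiv]
    · have h1 := two_of_comm_va (by rw [hx]; exact hp) hc
      exact hp2 (hx.symm.trans h1)

end Cfsg.Agent.H524.SporTool
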